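import Cfsg.Agent.H583.HT.Rho

/-!
# The case `e = 2`: the size of the module (S3577, S3540, TEAM HT-E, P4c; helper451)

* `cov` : coverage by elements of prime order;
* `field_pow`, `dim_even` : `|K| = p ^ f`, `|V| = |K| ^ (2 c)`;
* `e_two_size_of` : the size of `V`, from the counts of the elements with fixed vectors.
-/

set_option autoImplicit false
set_option linter.unusedSectionVars false

open scoped Classical

namespace Cfsg.Agent.H451.HT

open Cfsg.Agent.H828.HT Cfsg.Agent.H662.HT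

universe u

variable {p : ℕ} [Fact p.Prime] {V : Type u} [AddCommGroup V] [Module (ZMod p) V] [Finite V]

section cover

variable {G : Subgroup (V ≃ₗ[ZMod p] V)} {h : ℕ}

/-- **coverage by elements of prime order** -/
theorem cov (hh : Half G h) {r : ℕ} [Fact r.Prime] (hr : r ∣ h) :
    (r - 1) * (Nat.card V - 1) ≤
      ∑ g ∈ Finset.univ.filter (fun g : G => orderOf g = r), (Nat.card (fx (g : V ≃ₗ[ZMod p] V)) - 1) := by
  have h1 : ∀ g : G, Nat.card (fx (g : V ≃ₗ[ZMod p] V)) - 1 =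
      ∑ v ∈ Finset.univ.erase (0 : V), if (g : V ≃ₗ[ZMod p] V) v = v then 1 else 0 := by
    intro g
    rw [Finset.sum_boole, Nat.cast_id, Nat.card_eq_fintype_card, Fintype.card_subtype]
    have : Finset.filter (fun v => (g : V ≃ₗ[ZMod p] V) v = v) (Finset.univ.erase (0 : V)) =
        (Finset.univ.filter (fun v : V => v ∈ fx (g : V ≃ₗ[ZMod p] V))).erase 0 := by
      ext v; simp
    rw [this, Finset.card_erase_of_mem (by simp)]
  rw [Finset.sum_congr rfl (fun g _ => h1 g), Finset.sum_comm]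
  have h2 : ∀ v ∈ Finset.univ.erase (0 : V), r - 1 ≤
      ∑ g ∈ Finset.univ.filter (fun g : G => orderOf g = r),
        (if (g : V ≃ₗ[ZMod p] V) v = v then 1 else 0) := by
    intro v hv
    have hv0 := Finset.ne_of_mem_erase hv
    rw [Finset.sum_boole, Nat.cast_id, Finset.filter_filter]
    obtain ⟨x, hx⟩ := exists_prime_orderOf_dvd_card' (G := MulAction.stabilizer G v) r (by rw [hh v hv0]; exact hr)
    have h3 : (Finset.univ.filter (fun y : Subgroup.zpowers x => y ≠ 1)).card = r - 1 := by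
      rw [Finset.filter_ne', Finset.card_erase_of_mem (Finset.mem_univ _), Finset.card_univ,
        ← Nat.card_eq_fintype_card, Nat.card_zpowers, hx]
    rw [← h3]
    refine Finset.card_le_card_of_injOn (fun y => ((y : MulAction.stabilizer G v) : G)) ?_ ?_
    · intro y hy
      simp only [Finset.coe_filter, Finset.mem_univ, true_and, Set.mem_ofPred_eq] at hy ⊢
      refine ⟨?_, y.1.2⟩
      rw [Subgroup.orderOf_coe, Subgroup.orderOf_coe]
      have h4 : orderOf y ∣ r := by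
        rw [← hx, ← Nat.card_zpowers x]
        exact orderOf_dvd_natCard y
      rcases (Nat.dvd_prime (Fact.out : r.Prime)).1 h4 with h5 | h5
      · exact absurd (orderOf_eq_one_iff.1 h5) hy
      · exact h5
    · intro x _ y _ hxy
      exact Subtype.ext (Subtype.ext hxy)
  have h4 := Finset.sum_le_sum h2
  rw [Finset.sum_const, Finset.card_erase_of_mem (Finset.mem_univ _), Finset.card_univ,
    ← Nat.card_eq_fintype_card, smul_eq_mul, mul_comm] at h4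
  exact h4

/-- an element without non-zero fixed vectors -/
theorem fx_eq_one {g : V ≃ₗ[ZMod p] V} (hg : ¬ ∃ v : V, v ≠ 0 ∧ g v = v) : Nat.card (fx g) = 1 := by
  rw [Nat.card_eq_one_iff_unique]
  refine ⟨⟨fun a b => ?_⟩, ⟨0⟩⟩
  have h1 : ∀ a : fx g, (a : V) = 0 := by
    intro a
    by_contra hne
    exact hg ⟨a, hne, mem_fx.1 a.2⟩
  exact Subtype.ext ((h1 a).trans (h1 b).symm)

theorem sum_le_mul (P : G → Prop) [DecidablePred P] (B : ℕ) (hB : ∀ y : G, P y → Nat.card (fx (y : V ≃ₗ[ZMod p] V)) - 1 ≤ B) :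
    ∑ g ∈ Finset.univ.filter (fun g : G => P g), (Nat.card (fx (g : V ≃ₗ[ZMod p] V)) - 1) ≤
      Nat.card {y : G // P y} * B := by
  have h1 := Finset.sum_le_card_nsmul (Finset.univ.filter (fun g : G => P g))
    (fun g : G => Nat.card (fx (g : V ≃ₗ[ZMod p] V)) - 1) B (fun y hy => hB y (Finset.mem_filter.1 hy).2)
  rwa [smul_eq_mul, ← Fintype.card_subtype, ← Nat.card_eq_fintype_card] at h1

/-- splitting the coverage sum -/
theorem split {X : Type*} (σ : G → X) (e : X) {r : ℕ} {B₁ B₂ : ℕ}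
    (h1 : ∀ y : G, orderOf y = r → (∃ v : V, v ≠ 0 ∧ (y : V ≃ₗ[ZMod p] V) v = v) → σ y = e →
      Nat.card (fx (y : V ≃ₗ[ZMod p] V)) - 1 ≤ B₁)
    (h2 : ∀ y : G, orderOf y = r → (∃ v : V, v ≠ 0 ∧ (y : V ≃ₗ[ZMod p] V) v = v) → σ y ≠ e →
      Nat.card (fx (y : V ≃ₗ[ZMod p] V)) - 1 ≤ B₂) :
    ∑ g ∈ Finset.univ.filter (fun g : G => orderOf g = r), (Nat.card (fx (g : V ≃ₗ[ZMod p] V)) - 1) ≤
      Nat.card {y : G // orderOf y = r ∧ (∃ v : V, v ≠ 0 ∧ (y : V ≃ₗ[ZMod p] V) v = v) ∧ σ y = e} * B₁ +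
      Nat.card {y : G // orderOf y = r ∧ σ y ≠ e} * B₂ := by
  rw [← Finset.sum_filter_add_sum_filter_not _ (fun g : G => σ g = e), Finset.filter_filter, Finset.filter_filter]
  refine add_le_add ?_ ?_
  · have h3 := sum_le_mul (fun y : G => orderOf y = r ∧ (∃ v : V, v ≠ 0 ∧ (y : V ≃ₗ[ZMod p] V) v = v) ∧ σ y = e) B₁
      (fun y hy => h1 y hy.1 hy.2.1 hy.2.2)
    refine le_trans (le_of_eq ?_) h3
    symm
    apply Finset.sum_subset
    · intro y hy
      have hy' := (Finset.mem_filter.1 hy).2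
      exact Finset.mem_filter.2 ⟨Finset.mem_univ _, hy'.1, hy'.2.2⟩
    · intro y hy hy'
      have hy1 := (Finset.mem_filter.1 hy).2
      have h4 : ¬ ∃ v : V, v ≠ 0 ∧ (y : V ≃ₗ[ZMod p] V) v = v := fun hc =>
        hy' (Finset.mem_filter.2 ⟨Finset.mem_univ _, hy1.1, hc, hy1.2⟩)
      rw [fx_eq_one h4]
      rfl
  · refine le_trans (le_of_eq ?_) (sum_le_mul (fun y : G => orderOf y = r ∧ σ y ≠ e) B₂ ?_)
    · rfl
    intro y hy
    by_cases hc : ∃ v : V, v ≠ 0 ∧ (y : V ≃ₗ[ZMod p] V) v = v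
    · exact h2 y hy.1 hc hy.2
    · rw [fx_eq_one hc]
      exact Nat.zero_le _

end cover

section field

variable {G A F : Subgroup (V ≃ₗ[ZMod p] V)} {K : Type u} [Field K] [Module K V] {χ : A →* Kˣ} {σ : G →* (K ≃+* K)}

/-- `|K|` is a power of `p` -/
theorem field_pow [Nontrivial V] [Finite K] : ∃ f : ℕ, 1 ≤ f ∧ Nat.card K = p ^ f := by
  have h1 : Nat.card V = Nat.card K ^ Module.finrank K V := Module.natCard_eq_pow_finrank
  have h2 := card_eq_pow (p := p) V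
  have hV : 1 < Nat.card V := Finite.one_lt_card
  have hn : Module.finrank K V ≠ 0 := by
    intro h0
    rw [h0, pow_zero] at h1
    omega
  have h3 : Nat.card K ∣ p ^ Module.finrank (ZMod p) V := by
    rw [← h2, h1]
    exact dvd_pow_self _ hn
  obtain ⟨f, _, hf⟩ := (Nat.dvd_prime_pow (Fact.out : p.Prime)).1 h3
  refine ⟨f, ?_, hf⟩
  have hK : 1 < Nat.card K := Finite.one_lt_card
  rcases Nat.eq_zero_or_pos f with h0 | h0
  · rw [hf, h0, pow_zero] at hK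
    omega
  · exact h0

/-- roots of powers of `p` -/
theorem root_pow {q r f : ℕ} (hr : 1 ≤ r) (hq : 2 ≤ q) (h : q ^ r = p ^ f) : ∃ e, 1 ≤ e ∧ q = p ^ e := by
  have h3 : q ∣ p ^ f := by
    rw [← h]
    exact dvd_pow_self _ (by omega)
  obtain ⟨e, _, he⟩ := (Nat.dvd_prime_pow (Fact.out : p.Prime)).1 h3
  refine ⟨e, ?_, he⟩
  rcases Nat.eq_zero_or_pos e with h0 | h0
  · rw [he, h0, pow_zero] at hq
    omega
  · exact h0

/-- the `K`-linear map given by an element of `G` with trivial field automorphism -/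
def lin (hK : KS G A K χ σ) (g : G) (hg : σ g = 1) : V →ₗ[K] V where
  toFun v := (g : V ≃ₗ[ZMod p] V) v
  map_add' v w := map_add _ v w
  map_smul' k v := by
    rw [hK.semi, hg]
    rfl

/-- **the dimension is even** -/
theorem dim_even [Nontrivial V] (E : ETwo G A F) (hK : KS G A K χ σ) (hp : 5 ≤ p) :
    ∃ c : ℕ, 1 ≤ c ∧ Nat.card V = Nat.card K ^ (2 * c) := by
  have := hK.fin
  have hV : Nat.card V = Nat.card K ^ Module.finrank K V := Module.natCard_eq_pow_finrank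
  have : Module.Finite K V := Module.Finite.of_finite
  obtain ⟨x, hx, y, hy, hxA, hyA, hxy⟩ := Cfsg.Agent.H583.HT.exists_pair E
  have h1 := Cfsg.Agent.H583.HT.anti E hx hy hxA hyA hxy
  have hσ : ∀ z (hz : z ∈ F), σ ⟨z, E.FG hz⟩ = 1 := fun z hz => (hK.cen _).2 fun a ha => (E.cenA a ha z hz).symm
  let X := lin hK ⟨x, E.FG hx⟩ (hσ x hx)
  let Y := lin hK ⟨y, E.FG hy⟩ (hσ y hy)
  have h2 : X * Y = (-1 : K) • (Y * X) := by
    ext v
    have h3 : (x * y) v = -((y * x) v) := by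
      rw [h1]
      rfl
    rw [LinearMap.smul_apply, neg_one_smul]
    exact h3
  have h4 : (-1 : K) ^ Module.finrank K V = 1 := by
    have h5 := congrArg LinearMap.det h2
    rw [LinearMap.det_smul, map_mul, map_mul, mul_comm (LinearMap.det Y)] at h5
    have h6 : LinearMap.det X * LinearMap.det Y ≠ 0 := by
      rw [← map_mul]
      intro h0
      have h7 := LinearMap.bot_lt_ker_of_det_eq_zero h0
      have h8 : LinearMap.ker (X * Y) = ⊥ := by
        rw [LinearMap.ker_eq_bot]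
        intro v w hvw
        have h9 : x (y v) = x (y w) := hvw
        exact y.injective (x.injective h9)
      rw [h8] at h7
      exact lt_irrefl _ h7
    exact (mul_eq_right₀ h6).1 h5.symm
  have h5 : Even (Module.finrank K V) := by
    rcases Nat.even_or_odd (Module.finrank K V) with h | h
    · exact h
    · exfalso
      rw [h.neg_one_pow] at h4
      have h6 : (2 : K) = 0 := by
        have : (2 : K) = 1 + 1 := by norm_num
        rw [this]
        nth_rewrite 1 [← h4]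
        ring
      obtain ⟨v, hv⟩ := exists_ne (0 : V)
      have h7 : (2 : ZMod p) • v = 0 := by
        have h8 : (2 : K) • v = 0 := by rw [h6, zero_smul]
        rw [two_smul] at h8
        rw [two_smul]
        exact h8
      rcases smul_eq_zero.1 h7 with h8 | h8
      · have h9 : ((2 : ℕ) : ZMod p) = 0 := by exact_mod_cast h8
        rw [ZMod.natCast_eq_zero_iff] at h9
        have := Nat.le_of_dvd (by norm_num) h9
        omega
      · exact hv h8
  obtain ⟨c, hc⟩ := h5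
  refine ⟨c, ?_, ?_⟩
  · rcases Nat.eq_zero_or_pos c with h0 | h0
    · have hV1 : 1 < Nat.card V := Finite.one_lt_card
      rw [hV, hc, h0, add_zero, pow_zero] at hV1
      omega
    · exact h0
  · rw [hV, hc, two_mul]

/-- iterates -/
theorem iter_apply (g : V ≃ₗ[ZMod p] V) (n : ℕ) (v : V) : (fun w : V => g.toAddEquiv w)^[n] v = (g ^ n) v := by
  induction n generalizing v with
  | zero => rfl
  | succ n ih =>
    rw [Function.iterate_succ_apply, ih, pow_succ]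
    rfl

/-- semilinear elements of prime order -/
theorem semi_prime [Nontrivial V] (hK : KS G A K χ σ) {r : ℕ} (hr : r.Prime) {y : G} (hy : orderOf y = r)
    (hσ : σ y ≠ 1) : (∃ q₀ : ℕ, 2 ≤ q₀ ∧ Nat.card K = q₀ ^ r) ∧
      Nat.card (fx (y : V ≃ₗ[ZMod p] V)) ^ r ≤ Nat.card V := by
  have := hK.fin
  have h1 : ∀ w : V, (fun w : V => (y : V ≃ₗ[ZMod p] V).toAddEquiv w)^[r] w = w := by
    intro w
    rw [iter_apply, ← Subgroup.coe_pow, ← hy, pow_orderOf_eq_one]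
    rfl
  have h2 : ∀ (k : K) (w : V), (y : V ≃ₗ[ZMod p] V).toAddEquiv (k • w) =
      σ y k • (y : V ≃ₗ[ZMod p] V).toAddEquiv w := fun k w => hK.semi y k w
  constructor
  · obtain ⟨q₀, h3, h4, _⟩ := Cfsg.Agent.H528.HT.card_norm_semi (σ y) hσ hr (y : V ≃ₗ[ZMod p] V).toAddEquiv h2 h1
    exact ⟨q₀, h3, h4⟩
  · have h3 := Cfsg.Agent.H528.HT.card_fix_semi (σ y) hσ hr (y : V ≃ₗ[ZMod p] V).toAddEquiv h2 h1
    have h4 : Nat.card (fx (y : V ≃ₗ[ZMod p] V)) =
        Nat.card {w : V // (y : V ≃ₗ[ZMod p] V).toAddEquiv w = w} :=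
      Nat.card_congr (Equiv.subtypeEquivRight fun v => mem_fx)
    rw [h4]
    exact h3

end field

section arith

/-- `t = p ^ k`, `t ≤ 17` -/
theorem small_prime {t k : ℕ} (hp : 5 ≤ p) (ht : t = p ^ k) (h1 : 2 ≤ t) (h17 : t ≤ 17) :
    t = p ∧ (p = 5 ∨ p = 7 ∨ p = 11 ∨ p = 13 ∨ p = 17) := by
  have hk : k = 1 := by
    rcases Nat.lt_or_ge k 2 with h | h
    · interval_cases k
      · rw [pow_zero] at ht; omega
      · rfl
    · have h2 : p ^ 2 ≤ p ^ k := Nat.pow_le_pow_right (by omega) h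
      nlinarith
  rw [hk, pow_one] at ht
  refine ⟨ht, ?_⟩
  have hpp : p.Prime := Fact.out
  have h3 : p ≤ 17 := by omega
  clear ht h17 h1 hk
  interval_cases p <;> first | omega | exact absurd hpp (by norm_num)

theorem arith_three {u q₀ N M : ℕ} (hu : 5 ≤ u) (hq : q₀ ≤ u) (hN : N ≤ 24) (hM : M ≤ 18 * (q₀ ^ 2 + q₀ + 1))
    (h : (3 - 1) * (u ^ 6 - 1) ≤ N * (u ^ 3 - 1) + M * (u ^ 2 - 1)) : False := by
  have h1 : M ≤ 18 * (u ^ 2 + u + 1) := hM.trans (by nlinarith)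
  have h2 : N * (u ^ 3 - 1) + M * (u ^ 2 - 1) ≤ 24 * (u ^ 3 - 1) + 18 * (u ^ 2 + u + 1) * (u ^ 2 - 1) :=
    add_le_add (Nat.mul_le_mul_right _ hN) (Nat.mul_le_mul_right _ h1)
  have h3 := h.trans h2
  obtain ⟨w, rfl⟩ : ∃ w, u = w + 5 := ⟨u - 5, by omega⟩
  have e6 : (w + 5) ^ 6 - 1 = w ^ 6 + 30 * w ^ 5 + 375 * w ^ 4 + 2500 * w ^ 3 + 9375 * w ^ 2 + 18750 * w + 15624 := by
    rw [Nat.sub_eq_iff_eq_add (Nat.one_le_pow _ _ (by omega))]; ring
  have e3 : (w + 5) ^ 3 - 1 = w ^ 3 + 15 * w ^ 2 + 75 * w + 124 := by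
    rw [Nat.sub_eq_iff_eq_add (Nat.one_le_pow _ _ (by omega))]; ring
  have e2 : (w + 5) ^ 2 - 1 = w ^ 2 + 10 * w + 24 := by
    rw [Nat.sub_eq_iff_eq_add (Nat.one_le_pow _ _ (by omega))]; ring
  rw [e6, e3, e2] at h3
  have h4 : 24 * (w ^ 3 + 15 * w ^ 2 + 75 * w + 124) + 18 * ((w + 5) ^ 2 + (w + 5) + 1) * (w ^ 2 + 10 * w + 24) =
      18 * w ^ 4 + 402 * w ^ 3 + 3330 * w ^ 2 + 12132 * w + 16368 := by ring
  rw [h4] at h3
  have h5 : (3 - 1) * (w ^ 6 + 30 * w ^ 5 + 375 * w ^ 4 + 2500 * w ^ 3 + 9375 * w ^ 2 + 18750 * w + 15624) =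
      2 * w ^ 6 + 60 * w ^ 5 + 750 * w ^ 4 + 5000 * w ^ 3 + 18750 * w ^ 2 + 37500 * w + 31248 := by ring
  rw [h5] at h3
  have := Nat.zero_le (w ^ 6)
  have := Nat.zero_le (w ^ 5)
  have := Nat.zero_le (w ^ 4)
  have := Nat.zero_le (w ^ 3)
  have := Nat.zero_le (w ^ 2)
  omega

theorem arith_big {r q₀ w N : ℕ} (hr : 5 ≤ r) (hq : 5 ≤ q₀) (hw : q₀ ^ 2 ≤ w)
    (hN : (q₀ - 1) * N ≤ 24 * (r - 1) * (q₀ ^ r - 1))
    (h : (r - 1) * (w ^ r - 1) ≤ N * (w - 1)) : False := by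
  -- `(q₀ - 1) (w ^ r - 1) ≤ 24 (q₀ ^ r - 1) (w - 1)`
  have h1 : (r - 1) * ((q₀ - 1) * (w ^ r - 1)) ≤ (r - 1) * (24 * (q₀ ^ r - 1) * (w - 1)) := by
    calc (r - 1) * ((q₀ - 1) * (w ^ r - 1)) = (q₀ - 1) * ((r - 1) * (w ^ r - 1)) := by ring
      _ ≤ (q₀ - 1) * (N * (w - 1)) := Nat.mul_le_mul_left _ h
      _ = ((q₀ - 1) * N) * (w - 1) := by ring
      _ ≤ (24 * (r - 1) * (q₀ ^ r - 1)) * (w - 1) := Nat.mul_le_mul_right _ hN
      _ = (r - 1) * (24 * (q₀ ^ r - 1) * (w - 1)) := by ring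
  have h2 := Nat.le_of_mul_le_mul_left h1 (by omega : 0 < r - 1)
  have hw0 : 25 ≤ w := by nlinarith
  -- `w ^ r - 1 ≥ (w - 1) w ^ (r - 1)`
  have h3 : (w - 1) * w ^ (r - 1) ≤ w ^ r - 1 := by
    obtain ⟨s, rfl⟩ : ∃ s, r = s + 1 := ⟨r - 1, by omega⟩
    rw [Nat.add_sub_cancel, pow_succ, mul_comm (w ^ s) w, Nat.sub_mul, one_mul]
    have : 1 ≤ w ^ s := Nat.one_le_pow _ _ (by omega)
    omega
  have h4 : (w - 1) * ((q₀ - 1) * w ^ (r - 1)) ≤ (w - 1) * (24 * (q₀ ^ r - 1)) := by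
    calc (w - 1) * ((q₀ - 1) * w ^ (r - 1)) = (q₀ - 1) * ((w - 1) * w ^ (r - 1)) := by ring
      _ ≤ (q₀ - 1) * (w ^ r - 1) := Nat.mul_le_mul_left _ h3
      _ ≤ 24 * (q₀ ^ r - 1) * (w - 1) := h2
      _ = (w - 1) * (24 * (q₀ ^ r - 1)) := by ring
  have h5 := Nat.le_of_mul_le_mul_left h4 (by omega : 0 < w - 1)
  have h6 : (q₀ ^ 2) ^ (r - 1) ≤ w ^ (r - 1) := Nat.pow_le_pow_left hw _
  have h7 : (q₀ ^ 2) ^ (r - 1) = q₀ ^ r * q₀ ^ (r - 2) := by
    rw [← pow_mul, ← pow_add]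
    congr 1
    omega
  have h8 : q₀ ^ 3 ≤ q₀ ^ (r - 2) := Nat.pow_le_pow_right (by omega) (by omega)
  have h9 : 125 ≤ q₀ ^ 3 := by
    calc 125 = 5 ^ 3 := by norm_num
      _ ≤ q₀ ^ 3 := Nat.pow_le_pow_left hq 3
  have h10 : 1 ≤ q₀ ^ r := Nat.one_le_pow _ _ (by omega)
  have h11 : q₀ ^ r * 125 ≤ w ^ (r - 1) := by
    calc q₀ ^ r * 125 ≤ q₀ ^ r * q₀ ^ (r - 2) := Nat.mul_le_mul_left _ (h9.trans h8)
      _ ≤ w ^ (r - 1) := by rw [← h7]; exact h6
  have h12 : 1 * w ^ (r - 1) ≤ (q₀ - 1) * w ^ (r - 1) := Nat.mul_le_mul_right _ (by omega)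
  omega

end arith

section size

variable {G A F : Subgroup (V ≃ₗ[ZMod p] V)} {K : Type u} [Field K] [Module K V] {χ : A →* Kˣ} {σ : G →* (K ≃+* K)}

theorem le_of_sq {a b c : ℕ} (h : a ^ 2 ≤ b) (hb : b = c ^ 2) : a - 1 ≤ c - 1 := by
  have h1 : a ≤ c := by
    rw [hb] at h
    exact (Nat.pow_le_pow_iff_left (by norm_num)).1 h
  omega

/-- **the size of `V`** -/
theorem e_two_size_of [Nontrivial V] (E : ETwo G A F) (hK : KS G A K χ σ) (hp : 5 ≤ p)
    {h : ℕ} (hh : Half G h) (h2 : 2 ≤ h)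
    (a1 : Nat.card {y : G // y ≠ 1 ∧ y * y = 1 ∧ (∃ v : V, v ≠ 0 ∧ (y : V ≃ₗ[ZMod p] V) v = v) ∧ σ y = 1} ≤ 18)
    (a2 : ∀ q₀ : ℕ, Nat.card K = q₀ ^ 2 → Nat.card {y : G // y * y = 1 ∧ σ y ≠ 1} ≤ 10 * (q₀ + 1))
    (a3 : ∀ y : G, y ≠ 1 → y * y = 1 → (∃ v : V, v ≠ 0 ∧ (y : V ≃ₗ[ZMod p] V) v = v) →
      Nat.card (fx (y : V ≃ₗ[ZMod p] V)) ^ 2 ≤ Nat.card V)
    (b1 : Nat.card {y : G // orderOf y = 3 ∧ (∃ v : V, v ≠ 0 ∧ (y : V ≃ₗ[ZMod p] V) v = v) ∧ σ y = 1} ≤ 24)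
    (b2 : ∀ y : G, orderOf y = 3 → (∃ v : V, v ≠ 0 ∧ (y : V ≃ₗ[ZMod p] V) v = v) → σ y = 1 →
      Nat.card (fx (y : V ≃ₗ[ZMod p] V)) ^ 2 ≤ Nat.card V)
    (b3 : ∀ q₀ : ℕ, Nat.card K = q₀ ^ 3 → Nat.card {y : G // orderOf y = 3 ∧ σ y ≠ 1} ≤ 18 * (q₀ ^ 2 + q₀ + 1))
    (b4 : ∀ r : ℕ, r.Prime → 5 ≤ r → ∀ y : G, orderOf y = r →
      (∃ v : V, v ≠ 0 ∧ (y : V ≃ₗ[ZMod p] V) v = v) → σ y ≠ 1)
    (b5 : ∀ r : ℕ, r.Prime → 5 ≤ r → ∀ q₀ : ℕ, Nat.card K = q₀ ^ r →
      (q₀ - 1) * Nat.card {y : G // orderOf y = r ∧ σ y ≠ 1} ≤ 24 * (r - 1) * (q₀ ^ r - 1)) :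
    (Nat.card V = p ^ 2 ∧ (p = 5 ∨ p = 7 ∨ p = 11 ∨ p = 13 ∨ p = 17)) ∨
    (Nat.card V = p ^ 4 ∧ Nat.card K = p ^ 2 ∧ (p = 5 ∨ p = 7 ∨ p = 11)) := by
  have := hK.fin
  obtain ⟨c, hc1, hVc⟩ := dim_even E hK hp
  obtain ⟨f, hf1, hKf⟩ := field_pow (p := p) (V := V) (K := K)
  have hK1 : 1 < Nat.card K := Finite.one_lt_card
  -- `t = |K| ^ c`
  obtain ⟨t, ht⟩ : ∃ t, t = Nat.card K ^ c := ⟨_, rfl⟩
  have hVt : Nat.card V = t ^ 2 := by rw [hVc, ht, ← pow_mul, mul_comm]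
  have htp : t = p ^ (f * c) := by rw [ht, hKf, ← pow_mul]
  have ht2 : 2 ≤ t := by
    rw [ht]
    exact Nat.one_lt_pow (by omega) hK1
  have hV1 : Nat.card V - 1 = (t + 1) * (t - 1) := by
    rw [hVt, ← Nat.sq_sub_sq, one_pow]
  -- a prime divisor of `h`
  obtain ⟨r, hr, hrh⟩ := Nat.exists_prime_and_dvd (n := h) (by omega)
  have : Fact r.Prime := ⟨hr⟩
  have hcov := cov hh hrh
  have hr2 := hr.two_le
  rcases Nat.lt_or_ge r 5 with hr5 | hr5
  · have hr3 : r = 2 ∨ r = 3 := by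
      interval_cases r
      · exact Or.inl rfl
      · exact Or.inr rfl
      · exact absurd hr (by norm_num)
    rcases hr3 with rfl | rfl
    · -- involutions
      have ho : ∀ y : G, orderOf y = 2 → y ≠ 1 ∧ y * y = 1 := by
        intro y hy
        constructor
        · rintro rfl
          rw [orderOf_one] at hy
          omega
        · rw [← sq, ← hy, pow_orderOf_eq_one]
      have hB : ∀ y : G, orderOf y = 2 → (∃ v : V, v ≠ 0 ∧ (y : V ≃ₗ[ZMod p] V) v = v) →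
          Nat.card (fx (y : V ≃ₗ[ZMod p] V)) - 1 ≤ t - 1 := fun y hy hv =>
        le_of_sq (a3 y (ho y hy).1 (ho y hy).2 hv) hVt
      have hs := hcov.trans (split σ 1 (fun y hy hv _ => hB y hy hv) (fun y hy hv _ => hB y hy hv))
      have hN : Nat.card {y : G // orderOf y = 2 ∧ (∃ v : V, v ≠ 0 ∧ (y : V ≃ₗ[ZMod p] V) v = v) ∧ σ y = 1} ≤ 18 := by
        refine le_trans ?_ a1
        exact Nat.card_le_card_of_injective
          (fun y => ⟨y.1, (ho _ y.2.1).1, (ho _ y.2.1).2, y.2.2⟩) (fun a b hab => Subtype.ext (by simpa using hab))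
      rw [hV1, ← add_mul, ← mul_assoc] at hs
      have hs1 := Nat.le_of_mul_le_mul_right hs (by omega : 0 < t - 1)
      by_cases hsem : ∃ y : G, orderOf y = 2 ∧ σ y ≠ 1
      · obtain ⟨y, hy, hσy⟩ := hsem
        obtain ⟨⟨q₀, hq2, hq⟩, _⟩ := semi_prime hK hr hy hσy
        have hM : Nat.card {y : G // orderOf y = 2 ∧ σ y ≠ 1} ≤ 10 * (q₀ + 1) := by
          refine le_trans ?_ (a2 q₀ hq)
          exact Nat.card_le_card_of_injective
            (fun y => ⟨y.1, (ho _ y.2.1).2, y.2.2⟩) (fun a b hab => Subtype.ext (by simpa using hab))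
        have hs2 : t ≤ 27 + 10 * q₀ := by omega
        obtain ⟨e, he1, hqe⟩ := root_pow (p := p) (by norm_num : 1 ≤ 2) hq2 (hq.symm.trans hKf)
        have hq5 : 5 ≤ q₀ := by
          rw [hqe]
          exact hp.trans (Nat.le_self_pow (by omega) p)
        have htq : t = (q₀ ^ 2) ^ c := by rw [ht, hq]
        have hc : c = 1 := by
          by_contra hne
          have h3 : (q₀ ^ 2) ^ 2 ≤ (q₀ ^ 2) ^ c := Nat.pow_le_pow_right (by positivity) (by omega)
          rw [← htq] at h3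
          have h4 : 125 * q₀ ≤ (q₀ ^ 2) ^ 2 := by
            have h5 : 5 ^ 3 ≤ q₀ ^ 3 := Nat.pow_le_pow_left hq5 3
            have h6 : (q₀ ^ 2) ^ 2 = q₀ ^ 3 * q₀ := by ring
            rw [h6]
            exact Nat.mul_le_mul_right _ h5
          omega
        rw [hc, pow_one] at htq
        have hq12 : q₀ ≤ 12 := by nlinarith
        obtain ⟨hqp, h5⟩ := small_prime hp hqe hq2 (by omega)
        right
        subst hqp
        refine ⟨by rw [hVt, htq]; ring, hq, ?_⟩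
        omega
      · have hM : Nat.card {y : G // orderOf y = 2 ∧ σ y ≠ 1} = 0 := by
          rw [Nat.card_eq_zero]
          left
          exact ⟨fun y => hsem ⟨y.1, y.2⟩⟩
        rw [hM] at hs1
        have hs2 : t ≤ 17 := by omega
        obtain ⟨htp', h5⟩ := small_prime hp htp ht2 hs2
        left
        exact ⟨by rw [hVt, htp'], h5⟩
    · -- elements of order three
      by_cases hsem : ∃ y : G, orderOf y = 3 ∧ σ y ≠ 1
      · exfalso
        obtain ⟨y, hy, hσy⟩ := hsem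
        obtain ⟨⟨q₀, hq2, hq⟩, _⟩ := semi_prime hK hr hy hσy
        obtain ⟨e, he1, hqe⟩ := root_pow (p := p) (by norm_num : 1 ≤ 3) hq2 (hq.symm.trans hKf)
        have hq5 : 5 ≤ q₀ := by
          rw [hqe]
          exact hp.trans (Nat.le_self_pow (by omega) p)
        obtain ⟨u, hu⟩ : ∃ u, u = q₀ ^ c := ⟨_, rfl⟩
        have htu : t = u ^ 3 := by rw [ht, hq, hu, ← pow_mul, ← pow_mul, mul_comm]
        have hqu : q₀ ≤ u := by rw [hu]; exact Nat.le_self_pow (by omega) _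
        have hVu : Nat.card V = u ^ 6 := by rw [hVt, htu, ← pow_mul]
        have hs := hcov.trans (split σ 1 (B₁ := u ^ 3 - 1) (B₂ := u ^ 2 - 1)
          (fun y hy hv hσ => le_of_sq (b2 y hy hv hσ) (by rw [hVu]; ring)) (fun y hy hv hσ => by
            have h3 := (semi_prime hK hr hy hσ).2
            have h4 : Nat.card V = (u ^ 2) ^ 3 := by rw [hVu]; ring
            rw [h4] at h3
            have h5 := (Nat.pow_le_pow_iff_left (by norm_num)).1 h3
            omega))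
        rw [hVu] at hs
        exact arith_three (by omega) hqu b1 (b3 q₀ hq) hs
      · have hs := hcov.trans (split σ 1 (B₁ := t - 1) (B₂ := 0)
          (fun y hy hv hσ => le_of_sq (b2 y hy hv hσ) hVt) (fun y hy hv hσ => absurd ⟨y, hy, hσ⟩ hsem))
        rw [hV1, mul_zero, add_zero, ← mul_assoc] at hs
        have hs1 := Nat.le_of_mul_le_mul_right hs (by omega : 0 < t - 1)
        have hs2 : t ≤ 17 := by omega
        obtain ⟨htp', h5⟩ := small_prime hp htp ht2 hs2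
        left
        exact ⟨by rw [hVt, htp'], h5⟩
  · -- primes `≥ 5`
    exfalso
    have hex : ∃ y : G, orderOf y = r ∧ ∃ v : V, v ≠ 0 ∧ (y : V ≃ₗ[ZMod p] V) v = v := by
      obtain ⟨v, hv⟩ := exists_ne (0 : V)
      obtain ⟨x, hx⟩ := exists_prime_orderOf_dvd_card' (G := MulAction.stabilizer G v) r (by rw [hh v hv]; exact hrh)
      exact ⟨x, by rw [Subgroup.orderOf_coe]; exact hx, v, hv, x.2⟩
    obtain ⟨y, hy, hyv⟩ := hex
    have hσy := b4 r hr hr5 y hy hyv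
    obtain ⟨⟨q₀, hq2, hq⟩, _⟩ := semi_prime hK hr hy hσy
    obtain ⟨e, he1, hqe⟩ := root_pow (p := p) (by omega : 1 ≤ r) hq2 (hq.symm.trans hKf)
    have hq5 : 5 ≤ q₀ := by
      rw [hqe]
      exact hp.trans (Nat.le_self_pow (by omega) p)
    obtain ⟨w, hw⟩ : ∃ w, w = q₀ ^ (2 * c) := ⟨_, rfl⟩
    have hVw : Nat.card V = w ^ r := by rw [hVc, hq, hw, ← pow_mul, ← pow_mul, mul_comm]
    have hs := hcov.trans (split σ 1 (B₁ := 0) (B₂ := w - 1)
      (fun y hy hv hσ => absurd hσ (b4 r hr hr5 y hy hv)) (fun y hy hv hσ => by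
        have h3 := (semi_prime hK hr hy hσ).2
        rw [hVw] at h3
        have h5 := (Nat.pow_le_pow_iff_left (by omega)).1 h3
        omega))
    rw [mul_zero, zero_add, hVw] at hs
    refine arith_big hr5 hq5 ?_ (b5 r hr hr5 q₀ hq) hs
    rw [hw]
    exact Nat.pow_le_pow_right (by omega) (by omega)

end size

end Cfsg.Agent.H451.HT
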